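import Cfsg.Agent.S1324
import Cfsg.Agent.Lib.Helper12.Card
import Cfsg.Agent.Lib.Helper30.Coprime
import Cfsg.Agent.Lib.Helper53.Basic

set_option autoImplicit false
set_option maxHeartbeats 400000

namespace Cfsg.Agent.Lib.Helper53

open Subgroup
open Cfsg.Agent.Lib.Helper30 (cj IsSylowIn)

variable {G : Type*} [Group G]

/-- generation: a noncyclic elementary abelian group `A` of order `p ^ 2` acting on a `p'`-group `X`:
if all `C_X(a)`, `a ≠ 1`, lie in `M`, then `X ≤ M`. -/
theorem of_gen [Finite G] {p : ℕ} [Fact p.Prime] {A X M : Subgroup G}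
    (hA : Cfsg.IsElementaryAbelian p A) (hcard : Nat.card A = p ^ 2) (hX : ¬ p ∣ Nat.card X)
    (hAX : A ≤ normalizer (X : Set G))
    (h : ∀ a ∈ A, a ≠ 1 → X ⊓ centralizer {a} ≤ M) : X ≤ M := by
  have h1 := Cfsg.Agent.S1324.result p A X hA hcard.ge hX hAX
  rw [h1]
  apply iSup_le
  rintro ⟨B, hBA, hBi⟩
  have hBne : B ≠ ⊥ := by
    rintro rfl
    have h2 : (⊥ : Subgroup G).relIndex A = Nat.card A := by
      rw [Subgroup.relIndex_bot_left]
    rw [h2, hcard] at hBi
    have hp := (Fact.out : p.Prime).two_le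
    nlinarith
  obtain ⟨b, hb, hb1⟩ : ∃ b ∈ B, b ≠ 1 := by
    by_contra hcon
    push Not at hcon
    exact hBne ((Subgroup.eq_bot_iff_forall B).2 hcon)
  refine le_trans ?_ (h b (hBA hb) hb1)
  apply inf_le_inf_left
  apply Subgroup.centralizer_le
  simpa using hb

/-- the kernel of the action of `A` on `Q / M` -/
def ofKer (A Q M : Subgroup G) (hAM : A ≤ normalizer (M : Set G)) : Subgroup G where
  carrier := {g | g ∈ A ∧ ∀ x ∈ Q, x⁻¹ * g * x * g⁻¹ ∈ M}
  one_mem' := ⟨A.one_mem, fun x _ => by simp [M.one_mem]⟩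
  mul_mem' := by
    rintro g h ⟨hg, hg'⟩ ⟨hh, hh'⟩
    refine ⟨A.mul_mem hg hh, fun x hx => ?_⟩
    have e : x⁻¹ * (g * h) * x * (g * h)⁻¹ = (x⁻¹ * g * x * g⁻¹) * (g * (x⁻¹ * h * x * h⁻¹) * g⁻¹) := by
      group
    rw [e]
    exact M.mul_mem (hg' x hx) ((mem_normalizer_iff.1 (hAM hg) _).1 (hh' x hx))
  inv_mem' := by
    rintro g ⟨hg, hg'⟩
    refine ⟨A.inv_mem hg, fun x hx => ?_⟩
    have e : x⁻¹ * g⁻¹ * x * g⁻¹⁻¹ = g⁻¹ * (x⁻¹ * g * x * g⁻¹)⁻¹ * g⁻¹⁻¹ := by group
    rw [e]
    exact (mem_normalizer_iff.1 (hAM (A.inv_mem hg)) _).1 (M.inv_mem (hg' x hx))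

theorem mem_ofKer {A Q M : Subgroup G} {hAM : A ≤ normalizer (M : Set G)} {g : G} :
    g ∈ ofKer A Q M hAM ↔ g ∈ A ∧ ∀ x ∈ Q, x⁻¹ * g * x * g⁻¹ ∈ M := Iff.rfl

theorem ofKer_le {A Q M : Subgroup G} {hAM : A ≤ normalizer (M : Set G)} : ofKer A Q M hAM ≤ A :=
  fun _ h => h.1

/-- a subgroup `D` of the kernel covers `Q / M` by fixed points -/
theorem ofKer_cover [Finite G] {A Q M D : Subgroup G} {hAM : A ≤ normalizer (M : Set G)}
    (hAQ : A ≤ normalizer (Q : Set G)) (hMQ : M ≤ Q)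
    (hcop : (Nat.card A).Coprime (Nat.card Q)) (hsol : Group.IsSolvable A)
    (hD : D ≤ ofKer A Q M hAM) : Q ≤ (Q ⊓ centralizer (D : Set G)) ⊔ M := by
  intro x hx
  have hDA : D ≤ A := hD.trans ofKer_le
  obtain ⟨n, hn, hc⟩ := Helper30.exists_mem_centralizer_of_coset (A := D) (K := Q) (N := M)
    (hDA.trans hAQ) (Nat.Coprime.coprime_dvd_left (card_dvd_of_le hDA) hcop)
    (Or.inl (Helper30.isSolvable_of_le hDA hsol)) hMQ (hDA.trans hAM) hx
    (fun a ha => (hD ha).2 x hx)
  have e : x = (x * n) * n⁻¹ := by group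
  rw [e]
  exact mul_mem (mem_sup_left ⟨Q.mul_mem hx (hMQ hn), hc⟩) (mem_sup_right (M.inv_mem hn))

/-- conversely -/
theorem mem_ofKer_of_cover {A Q M : Subgroup G} {hAM : A ≤ normalizer (M : Set G)}
    (hQM : Q ≤ normalizer (M : Set G)) {a : G} (ha : a ∈ A)
    (h : Q ≤ (Q ⊓ centralizer {a}) ⊔ M) : a ∈ ofKer A Q M hAM := by
  refine ⟨ha, fun x hx => ?_⟩
  obtain ⟨c, hc, m, hm, rfl⟩ := (mem_sup_of_le_normalizer (inf_le_left.trans hQM)).1 (h hx)
  have hca : a * c = c * a := (mem_centralizer_iff.1 hc.2 a rfl)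
  have e : (c * m)⁻¹ * a * (c * m) * a⁻¹ = m⁻¹ * (c⁻¹ * (a * c)) * m * a⁻¹ := by group
  rw [e, hca]
  have e2 : m⁻¹ * (c⁻¹ * (c * a)) * m * a⁻¹ = m⁻¹ * (a * m * a⁻¹) := by group
  rw [e2]
  exact M.mul_mem (M.inv_mem hm) ((mem_normalizer_iff.1 (hAM ha) _).1 hm)

theorem of_card_filter {A E : Subgroup G} [Fintype A] (hEA : E ≤ A) [DecidablePred fun a : A => (a : G) ∈ E] :
    (Finset.univ.filter (fun a : A => (a : G) ∈ E)).card = Nat.card E := by
  rw [← Helper30.card_subgroupOf hEA, ← Fintype.card_subtype, ← Nat.card_eq_fintype_card]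
  rfl

theorem of_le_normalizer_centralizer {A : Subgroup G} (hc : IsMulCommutative A) {D : Set G}
    (hD : D ⊆ A) : A ≤ normalizer ((centralizer D : Subgroup G) : Set G) := by
  refine le_trans ?_ le_normalizer
  intro a ha
  rw [mem_centralizer_iff]
  intro d hd
  have := hc.is_comm.comm ⟨d, hD hd⟩ ⟨a, ha⟩
  exact congrArg Subtype.val this

open Classical in
theorem of_pgroup [Finite G] {p q : ℕ} [Fact p.Prime] [Fact q.Prime] (hqp : q ≠ p) {A : Subgroup G}
    [Fintype A] (hA : Cfsg.IsElementaryAbelian p A) (hcard : Nat.card A = p ^ 2) :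
    ∀ (n : ℕ) (Q : Subgroup G), Nat.card Q ≤ n → IsPGroup q Q → A ≤ normalizer (Q : Set G) →
      ∏ a : A, Nat.card ↥(Q ⊓ centralizer {(a : G)}) =
        Nat.card Q ^ p * Nat.card ↥(Q ⊓ centralizer (A : Set G)) ^ (p * (p - 1)) := by
  intro n
  induction n with
  | zero =>
    intro Q hQn
    exact absurd hQn (by have := Nat.card_pos (α := Q); omega)
  | succ n ih =>
    intro Q hQn hQ hAQ
    by_cases hbot : Q = ⊥
    · subst hbot
      simp
    have hp := (Fact.out : p.Prime)
    have hq := (Fact.out : q.Prime)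
    obtain ⟨k, hk⟩ := IsPGroup.iff_card.1 hQ
    have hcop : (Nat.card A).Coprime (Nat.card Q) := by
      rw [hcard, hk]
      exact Nat.Coprime.pow _ _ ((Nat.coprime_primes hp hq).2 hqp.symm)
    have hsol : Group.IsSolvable A := by
      apply Group.isSolvable_of_comm
      exact hA.1.is_comm.comm
    have hXp : ¬ p ∣ Nat.card Q := by
      intro h
      have h1 : p ∣ Nat.card A := by rw [hcard]; exact dvd_pow_self p (by norm_num)
      have := Nat.eq_one_of_dvd_coprimes hcop h1 h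
      exact hp.one_lt.ne' this
    obtain ⟨M, ⟨hMlt, hAM⟩, hmax⟩ := Set.Finite.exists_maximal
      (s := {M : Subgroup G | M < Q ∧ A ≤ normalizer (M : Set G)}) (Set.toFinite _)
      ⟨⊥, bot_lt_iff_ne_bot.2 hbot, by
        rw [Subgroup.normalizer_eq_top_iff.2 (inferInstance : (⊥ : Subgroup G).Normal)]; exact le_top⟩
    have hMQ : M ≤ Q := hMlt.le
    have hmax' : ∀ C : Subgroup G, M ≤ C → C ≤ Q → A ≤ normalizer (C : Set G) → C = M ∨ C = Q := by
      intro C hMC hCQ hAC
      by_cases h : C = Q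
      · exact Or.inr h
      · exact Or.inl (le_antisymm (hmax ⟨lt_of_le_of_ne hCQ h, hAC⟩ hMC) hMC)
    have hQM : Q ≤ normalizer (M : Set G) := by
      obtain ⟨t, htQ, htN, htM⟩ := Helper30.exists_mem_normalizer_not_mem hQ hMlt
      rcases hmax' (normalizer (M : Set G) ⊓ Q) (le_inf le_normalizer hMQ) inf_le_right
        (Helper30.le_normalizer_inf (Helper30.normalizer_le_normalizer_normalizer hAM) hAQ) with h | h
      · exact absurd (h ▸ (⟨htN, htQ⟩ : t ∈ normalizer (M : Set G) ⊓ Q)) htM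
      · exact h ▸ inf_le_left
    have hdich : ∀ C : Subgroup G, C ≤ Q → A ≤ normalizer (C : Set G) → C ≤ M ∨ Q ≤ C ⊔ M := by
      intro C hCQ hAC
      rcases hmax' (C ⊔ M) le_sup_right (sup_le hCQ hMQ) (Helper30.le_normalizer_sup hAC hAM) with h | h
      · exact Or.inl (h ▸ le_sup_left)
      · exact Or.inr h.ge
    set E := ofKer A Q M hAM with hE
    have hE1 : ∀ a ∈ A, a ∉ E → Q ⊓ centralizer {a} ≤ M := by
      intro a ha haE
      rcases hdich (Q ⊓ centralizer {a}) inf_le_left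
        (Helper30.le_normalizer_inf hAQ (of_le_normalizer_centralizer hA.1 (by simpa using ha))) with h | h
      · exact h
      · exact absurd (mem_ofKer_of_cover hQM ha h) haE
    have hEne : E ≠ ⊥ := by
      intro hEb
      apply hMlt.not_ge
      apply of_gen hA hcard hXp hAQ
      intro a ha ha1
      apply hE1 a ha
      rw [hEb, mem_bot]
      exact ha1
    have hMpos : 0 < Nat.card M := Nat.card_pos
    set m := M.relIndex Q with hm
    have hmM : m * Nat.card M = Nat.card Q := Helper12.relIndex_mul_card' hMQ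
    have key : ∀ C : Subgroup G, C ≤ Q → Q ≤ C ⊔ M → Nat.card C = m * Nat.card ↥(C ⊓ M) := by
      intro C hCQ hcov
      have h1 := Helper12.card_sup_mul_card_inf' C M (hCQ.trans hQM)
      rw [le_antisymm (sup_le hCQ hMQ) hcov, ← hmM] at h1
      apply Nat.eq_of_mul_eq_mul_right hMpos
      rw [← h1]
      ring
    have hinf : ∀ D : Set G, (Q ⊓ centralizer D) ⊓ M = M ⊓ centralizer D := by
      intro D
      rw [inf_right_comm, inf_eq_right.2 hMQ]
    have hterm : ∀ a : A, Nat.card ↥(Q ⊓ centralizer {(a : G)}) =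
        Nat.card ↥(M ⊓ centralizer {(a : G)}) * (if (a : G) ∈ E then m else 1) := by
      intro a
      by_cases haE : (a : G) ∈ E
      · rw [if_pos haE, key _ inf_le_left, hinf, mul_comm]
        have h1 := ofKer_cover (D := zpowers (a : G)) (hAM := hAM) hAQ hMQ hcop hsol
          (by rw [zpowers_le]; exact haE)
        refine h1.trans (sup_le_sup_right (inf_le_inf_left _ (centralizer_le ?_)) _)
        simp
      · rw [if_neg haE, mul_one]
        have h1 : Q ⊓ centralizer {(a : G)} = M ⊓ centralizer {(a : G)} :=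
          le_antisymm (le_inf (hE1 a a.2 haE) inf_le_right) (inf_le_inf_right _ hMQ)
        rw [h1]
    have hprod : ∏ a : A, Nat.card ↥(Q ⊓ centralizer {(a : G)}) =
        (∏ a : A, Nat.card ↥(M ⊓ centralizer {(a : G)})) * m ^ Nat.card E := by
      rw [Finset.prod_congr rfl (fun a _ => hterm a), Finset.prod_mul_distrib, Finset.prod_ite,
        Finset.prod_const, Finset.prod_const_one, mul_one, of_card_filter ofKer_le]
    have hMn : Nat.card M ≤ n := by
      have := Helper30.card_lt_of_lt hMlt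
      omega
    rw [hprod, ih M hMn (hQ.to_le hMQ) hAM, ← hmM]
    obtain ⟨j, hj⟩ : ∃ j, p = j + 1 := ⟨p - 1, by have := hp.pos; omega⟩
    have hEd : Nat.card E ∣ p ^ 2 := hcard ▸ card_dvd_of_le ofKer_le
    obtain ⟨i, hi2, hi⟩ := (Nat.dvd_prime_pow hp).1 hEd
    have hi0 : i ≠ 0 := by
      rintro rfl
      rw [pow_zero] at hi
      exact hEne ((Subgroup.card_eq_one).1 hi)
    have hcase : i = 1 ∨ i = 2 := by omega
    rcases hcase with rfl | rfl
    · -- |E| = p
      have hex : ∃ a ∈ A, a ∉ E := by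
        by_contra hcon
        push Not at hcon
        have : A = E := le_antisymm hcon ofKer_le
        rw [← this, hcard] at hi
        have := Nat.pow_right_injective hp.two_le hi
        omega
      obtain ⟨a, ha, haE⟩ := hex
      have h1 : Q ⊓ centralizer (A : Set G) = M ⊓ centralizer (A : Set G) := by
        apply le_antisymm _ (inf_le_inf_right _ hMQ)
        refine le_inf (le_trans (inf_le_inf_left _ (centralizer_le ?_)) (hE1 a ha haE)) inf_le_right
        simpa using ha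
      rw [h1, hi, pow_one]
      ring
    · -- E = A
      have hEA : E = A := by
        apply Subgroup.eq_of_le_of_card_ge ofKer_le
        rw [hi, hcard]
      have h1 := key (Q ⊓ centralizer (A : Set G)) inf_le_left
        (ofKer_cover (D := A) (hAM := hAM) hAQ hMQ hcop hsol hEA.ge)
      rw [h1, hinf, hi, hj]
      simp only [Nat.add_sub_cancel]
      ring

theorem of_sylow_centralizer [Finite G] {q : ℕ} [Fact q.Prime] {A U Q : Subgroup G}
    (hc : IsMulCommutative A) (hAU : A ≤ normalizer (U : Set G))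
    (hcop : (Nat.card A).Coprime (Nat.card U)) (hsol : Group.IsSolvable A)
    (hQ : IsSylowIn q Q U) (hAQ : A ≤ normalizer (Q : Set G)) (D : Set G) (hD : D ⊆ A) :
    IsSylowIn q (Q ⊓ centralizer D) (U ⊓ centralizer D) := by
  have hAUD : A ≤ normalizer ((U ⊓ centralizer D : Subgroup G) : Set G) :=
    Helper30.le_normalizer_inf hAU (of_le_normalizer_centralizer hc hD)
  obtain ⟨R, hR, hAR⟩ := Helper30.exists_invariant_isSylowIn hAUD
    (Nat.Coprime.coprime_dvd_right (card_dvd_of_le inf_le_left) hcop) (Or.inl hsol) q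
  obtain ⟨Q', hQ', hRQ', hAQ'⟩ := Helper30.exists_invariant_isSylowIn_ge hAU hcop (Or.inl hsol) q
    (hR.le.trans inf_le_left) hR.isPGroup hAR
  obtain ⟨c, hc', hcQ⟩ := Helper30.invariant_isSylowIn_conj hAU hcop (Or.inl hsol) q hQ' hQ hAQ' hAQ
  have hcUD : c ∈ U ⊓ centralizer D := ⟨hc'.1, centralizer_le hD hc'.2⟩
  have h1 := hR.cj c
  rw [Helper30.cj_eq_of_mem hcUD] at h1
  have h2 : cj c R ≤ Q ⊓ centralizer D :=
    le_inf (hcQ ▸ Helper30.cj_mono c hRQ') (h1.le.trans inf_le_right)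
  have h3 := h1.eq_of_le (V := Q ⊓ centralizer D) (inf_le_inf_right _ hQ.le)
    (hQ.isPGroup.to_le inf_le_left) h2
  rw [h3]
  exact h1

theorem of_card_sylow [Finite G] {q : ℕ} [Fact q.Prime] {P K : Subgroup G} (h : IsSylowIn q P K) :
    Nat.card P = q ^ (Nat.card K).factorization q := by
  obtain ⟨P', hP'⟩ := h.exists_sylow
  rw [← hP', card_map_of_injective K.subtype_injective]
  exact P'.card_eq_multiplicity

/-- **Brauer–Wielandt order formula** for an elementary abelian group `A` of order `p ^ 2` normalizing a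
`p'`-group `U`: `∏_{a ∈ A} |C_U(a)| = |U| ^ p * |C_U(A)| ^ (p (p - 1))`. -/
theorem order_formula [Finite G] {p : ℕ} [Fact p.Prime] {A : Subgroup G} [Fintype A]
    (hA : Cfsg.IsElementaryAbelian p A) (hcard : Nat.card A = p ^ 2) {U : Subgroup G}
    (hU : ¬ p ∣ Nat.card U) (hAU : A ≤ normalizer (U : Set G)) :
    ∏ a : A, Nat.card ↥(U ⊓ centralizer {(a : G)}) =
      Nat.card U ^ p * Nat.card ↥(U ⊓ centralizer (A : Set G)) ^ (p * (p - 1)) := by
  have hp := (Fact.out : p.Prime)
  have hne : ∀ X : Subgroup G, Nat.card X ≠ 0 := fun X => Nat.card_pos.ne'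
  have hcop : (Nat.card A).Coprime (Nat.card U) := by
    rw [hcard]
    exact Nat.Coprime.pow_left _ ((Nat.Prime.coprime_iff_not_dvd hp).2 hU)
  have hsol : Group.IsSolvable A := by
    apply Group.isSolvable_of_comm
    exact hA.1.is_comm.comm
  apply Nat.eq_of_factorization_eq
  · exact Finset.prod_ne_zero_iff.2 (fun a _ => hne _)
  · exact mul_ne_zero (pow_ne_zero _ (hne _)) (pow_ne_zero _ (hne _))
  intro q
  rw [Nat.factorization_prod (fun a _ => hne _), Nat.factorization_mul (pow_ne_zero _ (hne _))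
    (pow_ne_zero _ (hne _)), Nat.factorization_pow, Nat.factorization_pow]
  simp only [Finsupp.coe_finsetSum, Finset.sum_apply, Finsupp.coe_add, Finsupp.coe_smul,
    Pi.add_apply, Pi.smul_apply, smul_eq_mul]
  by_cases hq : q.Prime
  swap
  · simp [Nat.factorization_eq_zero_of_not_prime _ hq]
  have : Fact q.Prime := ⟨hq⟩
  by_cases hqp : q = p
  · subst hqp
    have hz : ∀ X : Subgroup G, X ≤ U → (Nat.card X).factorization q = 0 := fun X hX =>
      Nat.factorization_eq_zero_of_not_dvd (fun h => hU (h.trans (card_dvd_of_le hX)))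
    rw [hz U le_rfl, hz _ inf_le_left, Finset.sum_eq_zero (fun a _ => hz _ inf_le_left)]
    simp
  obtain ⟨Q, hQ, hAQ⟩ := Helper30.exists_invariant_isSylowIn hAU hcop (Or.inl hsol) q
  have h1 := of_pgroup hqp hA hcard _ Q le_rfl hQ.isPGroup hAQ
  rw [of_card_sylow hQ, of_card_sylow (of_sylow_centralizer hA.1 hAU hcop hsol hQ hAQ _ subset_rfl),
    Finset.prod_congr rfl (fun (a : A) _ => of_card_sylow (of_sylow_centralizer hA.1 hAU hcop hsol hQ hAQ
      {(a : G)} (by simp))), Finset.prod_pow_eq_pow_sum, ← pow_mul, ← pow_mul, ← pow_add] at h1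
  have h2 := Nat.pow_right_injective hq.two_le h1
  rw [h2]
  ring

end Cfsg.Agent.Lib.Helper53
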